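import Cfsg.Agent.JordanSet.Odd
import Cfsg.Agent.Marggraf.Basic
import Cfsg.Agent.S3707
import Mathlib

/-!
# A primitive group with a Jordan set of less than half the points contains the alternating group
-/

set_option autoImplicit false

namespace CfsgLib.JordanSet

open Equiv Finset MulAction

universe u

theorem grow {Ω : Type u} [Fintype Ω] [DecidableEq Ω] {H : Subgroup (Perm Ω)} {Γ : Finset Ω} {m t : ℕ}
    (hn : Fintype.card Ω = 2 * m + 1) (hΓ : Γ.card = m) (htr : JTrans H Γ)
    (hG : IsMultiplyPretransitive H Ω t) (ht : 3 ≤ t) (hmt : 2 * t ≤ m + 2) :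
    IsMultiplyPretransitive H Ω (t + 1) := by
  classical
  rw [isMultiplyPretransitive_iff]
  intro e e'
  obtain ⟨h, hh⟩ := (isMultiplyPretransitive_iff (G := H) (α := Ω) (n := t)).1 hG
    ((Fin.castSuccEmb).trans e) ((Fin.castSuccEmb).trans e')
  have hh' : ∀ i : Fin t, (h : Perm Ω) (e i.castSucc) = e' i.castSucc := fun i => by
    exact congrArg (fun f : Fin t ↪ Ω => f i) hh
  set S : Finset Ω := Finset.univ.image fun i : Fin t => e' i.castSucc with hSdef
  have hS : S.card = t := by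
    rw [hSdef, Finset.card_image_of_injective _ fun i j hij => Fin.castSucc_injective t (e'.injective hij),
      Finset.card_univ, Fintype.card_fin]
  set w := (h : Perm Ω) (e (Fin.last t)) with hw
  have hwS : w ∉ S := by
    intro hm
    obtain ⟨i, -, hi⟩ := Finset.mem_image.1 hm
    rw [← hh'] at hi
    exact (Fin.castSucc_lt_last i).ne (e.injective ((h : Perm Ω).injective hi))
  have hvS : e' (Fin.last t) ∉ S := by
    intro hm
    obtain ⟨i, -, hi⟩ := Finset.mem_image.1 hm
    exact (Fin.castSucc_lt_last i).ne (e'.injective hi)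
  have hav : ∀ x ∉ S, ∃ g : H, Av H Γ S g ∧ (g : Perm Ω)⁻¹ x ∈ Γ := by
    intro x hx
    by_contra hcon
    exact not_cpl hn hΓ htr hG ht hmt S hS x ⟨hx, fun g hg hgx => hcon ⟨g, hg, hgx⟩⟩
  have hmove : ∀ g : H, Av H Γ S g → ∀ x y : Ω, (g : Perm Ω)⁻¹ x ∈ Γ → (g : Perm Ω)⁻¹ y ∈ Γ →
      ∃ k : H, (∀ s ∈ S, (k : Perm Ω) s = s) ∧ (k : Perm Ω) x = y := by
    intro g hg x y hx hy
    obtain ⟨k, hk, hkF, hkx⟩ := htr _ hx _ hy
    refine ⟨g * ⟨k, hk⟩ * g⁻¹, fun s hs => ?_, ?_⟩
    · simp only [Subgroup.coe_mul, Subgroup.coe_inv, Perm.mul_apply]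
      rw [hkF _ (hg s hs)]
      simp
    · simp only [Subgroup.coe_mul, Subgroup.coe_inv, Perm.mul_apply]
      rw [hkx]
      simp
  obtain ⟨g, hg, hgw⟩ := hav w hwS
  obtain ⟨g', hg', hgv⟩ := hav _ hvS
  obtain ⟨o, ho⟩ : (Γ.image (g : Perm Ω) ∩ Γ.image (g' : Perm Ω)).Nonempty := by
    rw [← Finset.card_pos]
    have h1 := Finset.card_union_add_card_inter (Γ.image (g : Perm Ω)) (Γ.image (g' : Perm Ω))
    have h2 : (Γ.image (g : Perm Ω) ∪ Γ.image (g' : Perm Ω)).card ≤ (Sᶜ).card := by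
      refine Finset.card_le_card fun y hy => Finset.mem_compl.2 fun hys => ?_
      rcases Finset.mem_union.1 hy with hy | hy <;> obtain ⟨x, hx, rfl⟩ := Finset.mem_image.1 hy
      · exact hg _ hys (by simpa using hx)
      · exact hg' _ hys (by simpa using hx)
    rw [Finset.card_compl, hn, hS] at h2
    rw [Finset.card_image_of_injective _ (g : Perm Ω).injective,
      Finset.card_image_of_injective _ (g' : Perm Ω).injective, hΓ] at h1
    omega
  obtain ⟨ho1, ho2⟩ := Finset.mem_inter.1 ho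
  obtain ⟨o1, hom1, ho1e⟩ := Finset.mem_image.1 ho1
  obtain ⟨o2, hom2, ho2e⟩ := Finset.mem_image.1 ho2
  obtain ⟨k1, hk1, hk1w⟩ := hmove g hg w o hgw (by rw [← ho1e]; simpa using hom1)
  obtain ⟨k2, hk2, hk2o⟩ := hmove g' hg' o _ (by rw [← ho2e]; simpa using hom2) hgv
  refine ⟨k2 * k1 * h, ?_⟩
  ext i
  change (k2 : Perm Ω) ((k1 : Perm Ω) ((h : Perm Ω) (e i))) = e' i
  induction i using Fin.lastCases with
  | last => rw [← hw, hk1w, hk2o]
  | cast j =>
    have hj : e' j.castSucc ∈ S := Finset.mem_image.2 ⟨j, Finset.mem_univ _, rfl⟩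
    rw [hh', hk1 _ hj, hk2 _ hj]

theorem exists_small_odd {Ω : Type u} [Fintype Ω] [DecidableEq Ω] {H : Subgroup (Perm Ω)} {Γ : Finset Ω} {m : ℕ}
    (hn : Fintype.card Ω = 2 * m + 1) (hΓ : Γ.card = m) (h2 : 2 ≤ m) (htr : JTrans H Γ)
    (hG : IsMultiplyPretransitive H Ω 3) : ∃ h ∈ H, h ≠ 1 ∧ h.support.card ≤ 3 := by
  have key : ∀ k : ℕ, 2 * (3 + k) ≤ m + 4 → IsMultiplyPretransitive H Ω (3 + k) := by
    intro k
    induction k with
    | zero => exact fun _ => hG
    | succ k ih => exact fun hk => grow (t := 3 + k) hn hΓ htr (ih (by omega)) (Nat.le_add_right 3 k) (by omega)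
  obtain ⟨p, hp, q, hq, hpq⟩ := Finset.one_lt_card.1 (hΓ.symm ▸ h2)
  obtain ⟨x, hx, hxF, hxp⟩ := htr p hp q hq
  have hx1 : x ≠ 1 := fun e => hpq (by rw [← hxp, e, Perm.one_apply])
  have hsupp : x.support.card ≤ m := hΓ ▸ Finset.card_le_card fun y hy =>
    by_contra fun hyΓ => Perm.mem_support.1 hy (hxF y hyΓ)
  obtain ⟨⟨h, hh, hh1, hh3⟩, -⟩ := Jordan.small_support (k := 3 + ((m + 4) / 2 - 3)) (by omega) (by omega)
    (key _ (by omega)) hx hx1 (by omega)
  exact ⟨h, hh, hh1, hh3⟩

theorem exists_small : ∀ (n : ℕ) (Ω : Type u) [Fintype Ω] [DecidableEq Ω] (H : Subgroup (Perm Ω)) (Γ : Finset Ω),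
    Fintype.card Ω = n → IsPreprimitive H Ω → 1 < Γ.card → 2 * Γ.card < n → JTrans H Γ →
      ∃ h ∈ H, h ≠ 1 ∧ h.support.card ≤ 3 := by
  intro n
  induction n using Nat.strong_induction_on with
  | _ n ih =>
    intro Ω _ _ H Γ hn hP h1 h2 htr
    have htr' : ∀ x ∈ (Γ : Set Ω), ∀ y ∈ (Γ : Set Ω), ∃ g : H, (∀ z ∉ (Γ : Set Ω), g • z = z) ∧ g • x = y := by
      intro x hx y hy
      obtain ⟨h, hh, hF, hxy⟩ := htr x hx y hy
      exact ⟨⟨h, hh⟩, fun z hz => hF z hz, hxy⟩
    have hn' : Nat.card Ω = n := by rw [Nat.card_eq_fintype_card, hn]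
    have h3 : IsMultiplyPretransitive H Ω 3 :=
      Cfsg.Agent.S3707.result hP (Γ : Set Ω) (by rwa [Set.ncard_coe_finset])
        (by rw [Set.ncard_coe_finset, hn']; omega) htr'
    by_cases hodd : n = 2 * Γ.card + 1
    · exact exists_small_odd (hn.trans hodd) rfl h1 htr h3
    obtain ⟨a, ha⟩ : ∃ a, a ∉ Γ := by
      by_contra hall
      simp only [not_exists, not_not] at hall
      have : Γ = Finset.univ := Finset.eq_univ_iff_forall.2 hall
      rw [this, Finset.card_univ, hn] at h2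
      omega
    have h2t : IsMultiplyPretransitive H Ω 2 := by
      haveI := h3
      exact isMultiplyPretransitive_of_le (n := 3) (by omega) (by omega)
    haveI := Marggraf.stabilizer_preprimitive h2t (Γ := (Γ : Set Ω)) (by rwa [Set.ncard_coe_finset])
      (by rw [Set.ncard_coe_finset, hn']; omega) htr' a
    -- the restriction to the other points
    let res : stabilizer H a →* Perm {v : Ω // v ≠ a} :=
      { toFun := fun k => (((k : H) : Perm Ω)).subtypePerm (p := fun v => v ≠ a) fun v => by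
          have hk : ((k : H) : Perm Ω) a = a := k.2
          constructor <;> intro hv e <;> apply hv
          · rw [e, hk]
          · exact ((k : H) : Perm Ω).injective (e.trans hk.symm)
        map_one' := Equiv.ext fun v => Subtype.ext rfl
        map_mul' := fun k l => Equiv.ext fun v => Subtype.ext rfl }
    let f : SubMulAction.ofStabilizer H a →ₑ[res.rangeRestrict] {v : Ω // v ≠ a} :=
      { toFun := fun x => ⟨x.1, x.2⟩
        map_smul' := fun k x => Subtype.ext rfl }
    have hP' : IsPreprimitive res.range {v : Ω // v ≠ a} :=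
      IsPreprimitive.of_surjective (f := f) fun v => ⟨⟨v.1, v.2⟩, rfl⟩
    have hcard : (Γ.subtype fun v => v ≠ a).card = Γ.card := by
      rw [Finset.card_subtype]
      exact congrArg Finset.card (Finset.filter_eq_self.2 fun v hv (e : v = a) => ha (by rw [← e]; exact hv))
    have hcardΩ : Fintype.card {v : Ω // v ≠ a} = n - 1 := by
      rw [Fintype.card_subtype, Finset.filter_ne', Finset.card_erase_of_mem (Finset.mem_univ a),
        Finset.card_univ, hn]
    obtain ⟨h, hh, hh1, hh3⟩ := ih (n - 1) (by omega) _ res.range (Γ.subtype fun v => v ≠ a) hcardΩ hP'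
      (by rw [hcard]; exact h1) (by rw [hcard]; omega) (by
        intro x hx y hy
        obtain ⟨k, hk, hF, hxy⟩ := htr _ (Finset.mem_subtype.1 hx) _ (Finset.mem_subtype.1 hy)
        exact ⟨_, ⟨⟨⟨k, hk⟩, hF a ha⟩, rfl⟩, fun z hz => Subtype.ext (hF _ fun hz' => hz (Finset.mem_subtype.2 hz')),
          Subtype.ext hxy⟩)
    obtain ⟨k, rfl⟩ := hh
    refine ⟨((k : H) : Perm Ω), (k : H).2, fun e => hh1 (Equiv.ext fun v => Subtype.ext ?_), ?_⟩
    · show ((k : H) : Perm Ω) v = v
      rw [e]; rfl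
    · refine le_trans (Finset.card_le_card (t := (res k).support.image Subtype.val) fun v hv => ?_)
        (Finset.card_image_le.trans hh3)
      have hva : v ≠ a := fun e => Perm.mem_support.1 hv (by rw [e]; exact k.2)
      exact Finset.mem_image.2 ⟨⟨v, hva⟩, Perm.mem_support.2 fun e => Perm.mem_support.1 hv
        (congrArg Subtype.val e), rfl⟩

/-- A primitive group with a Jordan set of less than half the points contains the alternating group. -/
theorem alternatingGroup_le {Ω : Type u} [Fintype Ω] [DecidableEq Ω] {H : Subgroup (Perm Ω)} {Γ : Finset Ω}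
    (hP : IsPreprimitive H Ω) (h1 : 1 < Γ.card) (h2 : 2 * Γ.card < Fintype.card Ω) (htr : JTrans H Γ) :
    alternatingGroup Ω ≤ H := by
  obtain ⟨h, hh, hh1, hh3⟩ := exists_small _ Ω H Γ rfl hP h1 h2 htr
  rcases (show h.support.card = 2 ∨ h.support.card = 3 by
    have := Perm.two_le_card_support_of_ne_one hh1; omega) with h2 | h2
  · exact (Perm.subgroup_eq_top_of_isPreprimitive_of_isSwap_mem hP h
      (Perm.card_support_eq_two.mp h2) hh) ▸ le_top
  · exact Perm.alternatingGroup_le_of_isPreprimitive_of_isThreeCycle_mem hP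
      (card_support_eq_three_iff.mp h2) hh

end CfsgLib.JordanSet
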