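import Cfsg.Agent.Jordan.SmallSupport
import Mathlib

/-!
# Jordan sets with `m` of `2 m + 1` points

`Cpl Γ S w`: every translate of the Jordan set avoiding `S` avoids `w`. For a `t`-transitive group this is
an exchange geometry in which the complement of `Γ` is closed, and counting shows that it is empty; hence
the transitivity grows until an element of small support appears.
-/

set_option autoImplicit false

namespace CfsgLib.JordanSet

open Equiv Finset MulAction

variable {Ω : Type*} [Fintype Ω] [DecidableEq Ω] (H : Subgroup (Perm Ω)) (Γ : Finset Ω)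

/-- The translate of `Γ` by `g` avoids `S`. -/
def Av (S : Finset Ω) (g : H) : Prop := ∀ s ∈ S, (g : Perm Ω)⁻¹ s ∉ Γ

/-- Every translate avoiding `S` avoids `w`. -/
def Cpl (S : Finset Ω) (w : Ω) : Prop := w ∉ S ∧ ∀ g : H, Av H Γ S g → (g : Perm Ω)⁻¹ w ∉ Γ

/-- The pointwise stabiliser of the complement is transitive on `Γ`. -/
def JTrans : Prop := ∀ x ∈ Γ, ∀ y ∈ Γ, ∃ h ∈ H, (∀ z ∉ Γ, h z = z) ∧ h x = y

variable {H Γ}

theorem exists_map_of_pretransitive {t : ℕ} (hG : IsMultiplyPretransitive H Ω t) {S S' : Finset Ω}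
    (hS : S.card = t) (hS' : S'.card = t) : ∃ h ∈ H, S.image h = S' := by
  have hG' := (isMultiplyPretransitive_iff (G := H) (α := Ω) (n := t)).1 hG
  obtain ⟨h, hh⟩ := hG' ((S.equivFinOfCardEq hS).symm.toEmbedding.trans ⟨Subtype.val, Subtype.val_injective⟩)
    ((S'.equivFinOfCardEq hS').symm.toEmbedding.trans ⟨Subtype.val, Subtype.val_injective⟩)
  refine ⟨h, h.2, Finset.eq_of_subset_of_card_le (fun y hy => ?_) ?_⟩
  · obtain ⟨x, hx, rfl⟩ := Finset.mem_image.1 hy
    have := congrArg (fun e : Fin t ↪ Ω => e (S.equivFinOfCardEq hS ⟨x, hx⟩)) hh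
    simp only [Function.Embedding.smul_apply, Function.Embedding.trans_apply, Equiv.coe_toEmbedding,
      Equiv.symm_apply_apply, Function.Embedding.coeFn_mk] at this
    change (h : Perm Ω) x = _ at this
    rw [this]
    exact Subtype.coe_prop _
  · rw [Finset.card_image_of_injective _ (h : Perm Ω).injective, hS, hS']

theorem av_image {h : Perm Ω} (hh : h ∈ H) {S : Finset Ω} {g : H} :
    Av H Γ (S.image h) g ↔ Av H Γ S (⟨h, hh⟩⁻¹ * g) := by
  simp only [Av, Finset.forall_mem_image, Subgroup.coe_mul, Subgroup.coe_inv, mul_inv_rev, inv_inv,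
    Perm.mul_apply]

theorem cpl_image {h : Perm Ω} (hh : h ∈ H) {S : Finset Ω} {w : Ω} (hc : Cpl H Γ S w) :
    Cpl H Γ (S.image h) (h w) := by
  refine ⟨fun hm => ?_, fun g hg => ?_⟩
  · obtain ⟨x, hx, e⟩ := Finset.mem_image.1 hm
    exact hc.1 (h.injective e ▸ hx)
  · have := hc.2 _ ((av_image hh).1 hg)
    simpa only [Subgroup.coe_mul, Subgroup.coe_inv, mul_inv_rev, inv_inv, Perm.mul_apply] using this

theorem av_one {S : Finset Ω} (h : ∀ s ∈ S, s ∉ Γ) : Av H Γ S 1 := fun s hs => by simpa using h s hs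

section Transitive

variable {t : ℕ} (hG : IsMultiplyPretransitive H Ω t)

include hG

theorem av_of_subset {S S' : Finset Ω} (hS : S.card = t) (hS' : S'.card = t)
    (hle : ∀ g : H, Av H Γ S g → Av H Γ S' g) {g : H} (hg : Av H Γ S' g) : Av H Γ S g := by
  obtain ⟨h, hh, rfl⟩ := exists_map_of_pretransitive hG hS hS'
  let e : {g : H // Av H Γ (S.image h) g} ≃ {g : H // Av H Γ S g} :=
    Equiv.subtypeEquiv (Equiv.mulLeft (⟨h, hh⟩⁻¹ : H)) fun g => av_image hh
  let ι : {g : H // Av H Γ S g} → {g : H // Av H Γ (S.image h) g} := fun g => ⟨g.1, hle g.1 g.2⟩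
  have hι : Function.Injective ι := fun u v e => Subtype.ext (congrArg Subtype.val e :)
  obtain ⟨u, hu⟩ := (hι.bijective_of_nat_card_le (Nat.card_congr e).le).2 ⟨g, hg⟩
  have he : u.1 = g := congrArg Subtype.val hu
  exact he ▸ u.2

theorem av_exchange {S : Finset Ω} (hS : S.card = t) {w x : Ω} (hc : Cpl H Γ S w) (hx : x ∈ S) {g : H}
    (hg : Av H Γ (insert w (S.erase x)) g) : Av H Γ S g := by
  refine av_of_subset hG hS ?_ (fun g' hg' s hs => ?_) hg
  · rw [Finset.card_insert_of_notMem fun e => hc.1 (Finset.mem_of_mem_erase e),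
      Finset.card_erase_of_mem hx, hS]
    have : 0 < S.card := Finset.card_pos.2 ⟨x, hx⟩
    omega
  · rcases Finset.mem_insert.1 hs with rfl | hs
    · exact hc.2 g' hg'
    · exact hg' s (Finset.mem_of_mem_erase hs)

theorem cpl_exchange {S : Finset Ω} (hS : S.card = t) {w x : Ω} (hc : Cpl H Γ S w) (hx : x ∈ S) :
    Cpl H Γ (insert w (S.erase x)) x := by
  refine ⟨fun hm => ?_, fun g hg => av_exchange hG hS hc hx hg x hx⟩
  rcases Finset.mem_insert.1 hm with rfl | hm
  · exact hc.1 hx
  · exact Finset.notMem_erase x S hm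

omit hG in
theorem cpl_out {S : Finset Ω} {w : Ω} (hc : Cpl H Γ S w) (hS : ∀ s ∈ S, s ∉ Γ) : w ∉ Γ := by
  simpa using hc.2 1 (av_one hS)

theorem cpl_in {S : Finset Ω} (hS : S.card = t) {w x : Ω} (hc : Cpl H Γ S w) (hx : x ∈ S) (hxΓ : x ∈ Γ)
    (hrest : ∀ s ∈ S, s ≠ x → s ∉ Γ) : w ∈ Γ := by
  by_contra hw
  refine cpl_out (cpl_exchange hG hS hc hx) (fun s hs => ?_) hxΓ
  rcases Finset.mem_insert.1 hs with rfl | hs
  · exact hw
  · exact hrest s (Finset.mem_of_mem_erase hs) (Finset.ne_of_mem_erase hs)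

theorem exists_cpl {S₀ : Finset Ω} (hS₀ : S₀.card = t) {w₀ : Ω} (hc : Cpl H Γ S₀ w₀) {S : Finset Ω}
    (hS : S.card = t) : ∃ w, Cpl H Γ S w := by
  obtain ⟨h, hh, rfl⟩ := exists_map_of_pretransitive hG hS₀ hS
  exact ⟨_, cpl_image hh hc⟩

end Transitive

set_option maxHeartbeats 1000000 in
/-- In a `t`-transitive group of degree `2 m + 1` with a Jordan set of size `m` no point is coupled to
`t` others. -/
theorem not_cpl {m t : ℕ} (hn : Fintype.card Ω = 2 * m + 1) (hΓ : Γ.card = m) (htr : JTrans H Γ)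
    (hG : IsMultiplyPretransitive H Ω t) (ht : 3 ≤ t) (hmt : 2 * t ≤ m + 2) (S₀ : Finset Ω)
    (hS₀ : S₀.card = t) (w₀ : Ω) : ¬ Cpl H Γ S₀ w₀ := by
  intro hc₀
  have hF : Γᶜ.card = m + 1 := by rw [Finset.card_compl, hn, hΓ]; omega
  obtain ⟨p, hp⟩ : Γ.Nonempty := Finset.card_pos.1 (by omega)
  -- the sets `B ∪ {p, f}`
  have hcard : ∀ (B : Finset Ω) (f : Ω) (q : Ω), B ⊆ Γᶜ → B.card + 2 = t → f ∈ Γᶜ \ B → q ∈ Γ →
      (insert q (insert f B)).card = t := by
    intro B f q hB hBc hf hq
    rw [Finset.mem_sdiff] at hf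
    rw [Finset.card_insert_of_notMem, Finset.card_insert_of_notMem hf.2]
    · omega
    · intro hm
      rcases Finset.mem_insert.1 hm with rfl | hm
      · exact Finset.mem_compl.1 hf.1 hq
      · exact Finset.mem_compl.1 (hB hm) hq
  have hin : ∀ (B : Finset Ω) (f q w : Ω), B ⊆ Γᶜ → B.card + 2 = t → f ∈ Γᶜ \ B → q ∈ Γ →
      Cpl H Γ (insert q (insert f B)) w → w ∈ Γ ∧ w ≠ q := by
    intro B f q w hB hBc hf hq hc
    refine ⟨cpl_in hG (hcard B f q hB hBc hf hq) hc (Finset.mem_insert_self _ _) hq fun s hs hsq => ?_,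
      fun e => hc.1 (e ▸ Finset.mem_insert_self _ _)⟩
    rcases Finset.mem_insert.1 hs with rfl | hs
    · exact absurd rfl hsq
    rcases Finset.mem_insert.1 hs with rfl | hs
    · exact Finset.mem_compl.1 (Finset.mem_sdiff.1 hf).1
    · exact Finset.mem_compl.1 (hB hs)
  have hdisj : ∀ (B : Finset Ω) (f f' q w : Ω), B ⊆ Γᶜ → B.card + 2 = t → f ∈ Γᶜ \ B → f' ∈ Γᶜ \ B →
      q ∈ Γ → Cpl H Γ (insert q (insert f B)) w → Cpl H Γ (insert q (insert f' B)) w → f = f' := by
    intro B f f' q w hB hBc hf hf' hq h1 h2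
    by_contra hne
    have hS' := hcard B f' q hB hBc hf' hq
    have hfq : f ≠ q := fun e => Finset.mem_compl.1 (Finset.mem_sdiff.1 hf).1 (e ▸ hq)
    have hf'q : f' ≠ q := fun e => Finset.mem_compl.1 (Finset.mem_sdiff.1 hf').1 (e ▸ hq)
    -- `f'` is coupled to `B ∪ {q, f}`
    have hc : Cpl H Γ (insert q (insert f B)) f' := by
      refine ⟨fun hm => ?_, fun g hg => ?_⟩
      · rcases Finset.mem_insert.1 hm with e | hm
        · exact hf'q e
        rcases Finset.mem_insert.1 hm with e | hm
        · exact hne e.symm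
        · exact (Finset.mem_sdiff.1 hf').2 hm
      · refine av_exchange hG hS' h2 (Finset.mem_insert_of_mem (Finset.mem_insert_self _ _)) (fun s hs => ?_) f'
          (Finset.mem_insert_of_mem (Finset.mem_insert_self _ _))
        rcases Finset.mem_insert.1 hs with rfl | hs
        · exact h1.2 g hg
        have hs1 := Finset.mem_of_mem_erase hs
        refine hg s ?_
        rcases Finset.mem_insert.1 hs1 with rfl | hs1
        · exact Finset.mem_insert_self _ _
        rcases Finset.mem_insert.1 hs1 with rfl | hs1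
        · exact absurd rfl (Finset.ne_of_mem_erase hs)
        · exact Finset.mem_insert_of_mem (Finset.mem_insert_of_mem hs1)
    exact Finset.mem_compl.1 (Finset.mem_sdiff.1 hf').1 (hin B f q f' hB hBc hf hq hc).1
  obtain ⟨B₀, hB₀, hB₀c⟩ := Finset.exists_subset_card_eq (s := Γᶜ) (n := t - 2) (by omega)
  -- the partner is unique
  have huniq : ∀ S : Finset Ω, S.card = t → ∀ w v, Cpl H Γ S w → Cpl H Γ S v → w = v := by
    intro S hS w v hw hv
    by_contra hne
    have htwo : ∀ f ∈ Γᶜ \ B₀, ∃ a b : Ω, a ≠ b ∧ Cpl H Γ (insert p (insert f B₀)) a ∧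
        Cpl H Γ (insert p (insert f B₀)) b := by
      intro f hf
      obtain ⟨h, hh, he⟩ := exists_map_of_pretransitive hG hS (hcard B₀ f p hB₀ (by omega) hf hp)
      exact ⟨h w, h v, fun e => hne (h.injective e), he ▸ cpl_image hh hw, he ▸ cpl_image hh hv⟩
    classical
    let P : Ω → Finset Ω := fun f => Finset.univ.filter fun a => Cpl H Γ (insert p (insert f B₀)) a
    have hsub : (Γᶜ \ B₀).biUnion P ⊆ Γ.erase p := by
      intro a ha
      obtain ⟨f, hf, ha⟩ := Finset.mem_biUnion.1 ha
      obtain ⟨h1, h2⟩ := hin B₀ f p a hB₀ (by omega) hf hp (Finset.mem_filter.1 ha).2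
      exact Finset.mem_erase.2 ⟨h2, h1⟩
    have h := Finset.card_le_card hsub
    rw [Finset.card_erase_of_mem hp, hΓ, Finset.card_biUnion] at h
    · have h' : ∀ f ∈ Γᶜ \ B₀, 2 ≤ (P f).card := fun f hf => by
        obtain ⟨a, b, hab, ha, hb⟩ := htwo f hf
        exact Finset.one_lt_card.2 ⟨a, by simp [P, ha], b, by simp [P, hb], hab⟩
      have := Finset.card_nsmul_le_sum _ _ 2 h'
      rw [Finset.card_sdiff_of_subset hB₀, hF, hB₀c, smul_eq_mul] at this
      omega
    · intro f hf f' hf' hff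
      refine Finset.disjoint_left.2 fun a ha ha' => hff ?_
      exact hdisj B₀ f f' p a hB₀ (by omega) hf hf' hp (Finset.mem_filter.1 ha).2 (Finset.mem_filter.1 ha').2
  have hex : ∀ S : Finset Ω, ∃ w, S.card = t → Cpl H Γ S w := fun S => by
    by_cases hS : S.card = t
    · obtain ⟨w, hw⟩ := exists_cpl hG hS₀ hc₀ hS
      exact ⟨w, fun _ => hw⟩
    · exact ⟨p, fun e => absurd e hS⟩
  choose P hP using hex
  have heq : ∀ {S : Finset Ω} {w : Ω}, S.card = t → Cpl H Γ S w → P S = w := fun hS hw =>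
    huniq _ hS _ _ (hP _ hS) hw
  have hPk : ∀ (k : Perm Ω), k ∈ H → ∀ S : Finset Ω, S.card = t → P (S.image k) = k (P S) := by
    intro k hk S hS
    exact heq (by rw [Finset.card_image_of_injective _ k.injective, hS]) (cpl_image hk (hP S hS))
  -- the injections
  have hinjB : ∀ (B : Finset Ω), B ⊆ Γᶜ → B.card + 2 = t → ∀ q ∈ Γ,
      Set.InjOn (fun f => P (insert q (insert f B))) ↑(Γᶜ \ B) := by
    intro B hB hBc q hq f hf f' hf' e
    simp only at e
    exact hdisj B f f' q _ hB hBc hf hf' hq (hP _ (hcard B f q hB hBc hf hq))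
      (e ▸ hP _ (hcard B f' q hB hBc hf' hq))
  have hK : ∀ k : Perm Ω, (∀ z ∉ Γ, k z = z) → ∀ x ∈ Γ, k x ∈ Γ := fun k hk x hx => by
    by_contra hkx
    exact hkx ((k.injective (hk _ hkx)).symm ▸ hx)
  -- fixed point of the pointwise stabiliser
  have hreg : ∀ k ∈ H, (∀ z ∉ Γ, k z = z) → ∀ q ∈ Γ, k q = q → k = 1 := by
    intro k hk hkF q hq hkq
    refine Equiv.ext fun r => ?_
    rw [Perm.one_apply]
    by_cases hr : r ∈ Γ
    swap
    · exact hkF r hr
    obtain ⟨l, hl, hlF, rfl⟩ := htr q hq r hr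
    classical
    -- the points `q` and its partners
    let O : Finset Ω := insert q ((Γᶜ \ B₀).image fun f => P (insert q (insert f B₀)))
    have hOΓ : O ⊆ Γ := by
      intro a ha
      rcases Finset.mem_insert.1 ha with rfl | ha
      · exact hq
      obtain ⟨f, hf, rfl⟩ := Finset.mem_image.1 ha
      exact (hin B₀ f q _ hB₀ (by omega) hf hq (hP _ (hcard B₀ f q hB₀ (by omega) hf hq))).1
    have hOc : O.card = m + 4 - t := by
      rw [Finset.card_insert_of_notMem, Finset.card_image_of_injOn (hinjB B₀ hB₀ (by omega) q hq),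
        Finset.card_sdiff_of_subset hB₀, hF, hB₀c]
      · omega
      · intro ha
        obtain ⟨f, hf, e⟩ := Finset.mem_image.1 ha
        exact (hin B₀ f q _ hB₀ (by omega) hf hq (hP _ (hcard B₀ f q hB₀ (by omega) hf hq))).2 e
    -- `k` commutes with the partner maps
    have hcomm : ∀ f ∈ Γᶜ \ B₀, ∀ a ∈ Γ, ∀ j ∈ H, (∀ z ∉ Γ, j z = z) →
        P (insert (j a) (insert f B₀)) = j (P (insert a (insert f B₀))) := by
      intro f hf a ha j hj hjF
      rw [← hPk j hj _ (hcard B₀ f a hB₀ (by omega) hf ha)]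
      congr 1
      have hfix : (insert f B₀).image j = insert f B₀ := by
        refine Finset.eq_of_subset_of_card_le (fun y hy => ?_)
          (Finset.card_image_of_injective _ j.injective).ge
        obtain ⟨x, hx, rfl⟩ := Finset.mem_image.1 hy
        have hxF : x ∉ Γ := by
          rcases Finset.mem_insert.1 hx with rfl | hx'
          · exact Finset.mem_compl.1 (Finset.mem_sdiff.1 hf).1
          · exact Finset.mem_compl.1 (hB₀ hx')
        rw [hjF x hxF]
        exact hx
      rw [Finset.image_insert, hfix]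
    have hinv : ∀ f ∈ Γᶜ \ B₀, ∀ a ∈ Γ, P (insert (P (insert a (insert f B₀))) (insert f B₀)) = a := by
      intro f hf a ha
      have hS := hcard B₀ f a hB₀ (by omega) hf ha
      have h2 := hin B₀ f a _ hB₀ (by omega) hf ha (hP _ hS)
      refine heq (hcard B₀ f _ hB₀ (by omega) hf h2.1) ?_
      have := cpl_exchange hG hS (hP _ hS) (Finset.mem_insert_self _ _)
      rwa [Finset.erase_insert] at this
      intro hm
      rcases Finset.mem_insert.1 hm with rfl | hm
      · exact Finset.mem_compl.1 (Finset.mem_sdiff.1 hf).1 ha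
      · exact Finset.mem_compl.1 (hB₀ hm) ha
    -- every element of `O` is fixed by `k`, also after translating by `l`
    have hkO : ∀ a ∈ Γ, k a = a → ∀ f ∈ Γᶜ \ B₀, k (P (insert a (insert f B₀))) = P (insert a (insert f B₀)) :=
      fun a ha hka f hf => by rw [← hcomm f hf a ha k hk hkF, hka]
    obtain ⟨o, ho⟩ : (O ∩ O.image l).Nonempty := by
      rw [← Finset.card_pos]
      have h1 := Finset.card_union_add_card_inter O (O.image l)
      have h2 : (O ∪ O.image l).card ≤ m := hΓ ▸ Finset.card_le_card (Finset.union_subset hOΓ fun y hy => by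
        obtain ⟨x, hx, rfl⟩ := Finset.mem_image.1 hy
        exact hK l hlF x (hOΓ hx))
      rw [Finset.card_image_of_injective _ l.injective, hOc] at h1
      omega
    obtain ⟨ho1, ho2⟩ := Finset.mem_inter.1 ho
    obtain ⟨o', ho', rfl⟩ := Finset.mem_image.1 ho2
    have hko : k (l o') = l o' := by
      rcases Finset.mem_insert.1 ho1 with e | ho1
      · rw [e]; exact hkq
      · obtain ⟨f, hf, e⟩ := Finset.mem_image.1 ho1
        rw [← e]; exact hkO q hq hkq f hf
    rcases Finset.mem_insert.1 ho' with rfl | ho'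
    · exact hko
    obtain ⟨f, hf, rfl⟩ := Finset.mem_image.1 ho'
    have hlq : l q ∈ Γ := hK l hlF q hq
    rw [← hcomm f hf q hq l hl hlF] at hko
    have hmem := (hin B₀ f (l q) _ hB₀ (by omega) hf hlq (hP _ (hcard B₀ f (l q) hB₀ (by omega) hf hlq))).1
    have := hkO _ hmem hko f hf
    rwa [hinv f hf (l q) hlq] at this
  -- pairs of `Γ` not interchanged by the stabiliser
  choose κ hκH hκF hκ using fun q : {q // q ∈ Γ} => htr p hp q.1 q.2
  classical
  let Q : Finset Ω := Finset.univ.filter fun q => ∃ hq : q ∈ Γ, q ≠ p ∧ κ ⟨q, hq⟩ q ≠ p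
  have hfixB : ∀ (j : Perm Ω), (∀ z ∉ Γ, j z = z) → ∀ B : Finset Ω, B ⊆ Γᶜ → B.image j = B := by
    intro j hj B hB
    conv_rhs => rw [← Finset.image_id (s := B)]
    exact Finset.image_congr fun x hx => hj x (Finset.mem_compl.1 (hB hx))
  -- blocks `B ∪ {p, q, r}`
  have hBpq : ∀ (B : Finset Ω), B ⊆ Γᶜ → B.card + 2 = t → ∀ q ∈ Γ, q ≠ p →
      (q ∈ Q ↔ P (insert p (insert q B)) ∈ Γ) := by
    intro B hB hBc q hq hqp
    have hpB : p ∉ insert q B := by
      intro hm
      rcases Finset.mem_insert.1 hm with e | hm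
      · exact hqp e.symm
      · exact Finset.mem_compl.1 (hB hm) hp
    have hS : (insert p (insert q B)).card = t := by
      rw [Finset.card_insert_of_notMem hpB,
        Finset.card_insert_of_notMem fun hm => Finset.mem_compl.1 (hB hm) hq]
      omega
    have hsw : κ ⟨q, hq⟩ p = q := hκ ⟨q, hq⟩
    set r := P (insert p (insert q B)) with hr
    constructor
    · intro hQ
      obtain ⟨hq', -, hne⟩ := (Finset.mem_filter.1 hQ).2
      by_contra hrF
      refine hne ?_
      -- `q` is the partner of `B ∪ {p, r}`, hence interchanged with `p`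
      have hrB : r ∈ Γᶜ \ B := Finset.mem_sdiff.2 ⟨Finset.mem_compl.2 hrF,
        fun hm => (hP _ hS).1 (Finset.mem_insert_of_mem (Finset.mem_insert_of_mem hm))⟩
      have h1 : P (insert p (insert r B)) = q := by
        refine heq (hcard B r p hB hBc hrB hp) ?_
        have := cpl_exchange hG hS (hP _ hS) (Finset.mem_insert_of_mem (Finset.mem_insert_self q B))
        rw [← hr, Finset.erase_insert_of_ne (Ne.symm hqp), Finset.erase_insert
          (fun hm => Finset.mem_compl.1 (hB hm) hq), Finset.insert_comm] at this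
        exact this
      have h2 : P (insert q (insert r B)) = p := by
        refine heq (hcard B r q hB hBc hrB hq) ?_
        have := cpl_exchange hG hS (hP _ hS) (Finset.mem_insert_self p _)
        rw [← hr, Finset.erase_insert hpB, Finset.insert_comm] at this
        exact this
      have h3 := hPk (κ ⟨q, hq⟩) (hκH _) _ (hcard B r p hB hBc hrB hp)
      have hfix : (insert r B).image (κ ⟨q, hq⟩) = insert r B :=
        hfixB _ (hκF _) _ (Finset.insert_subset_iff.2 ⟨Finset.mem_compl.2 hrF, hB⟩)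
      rw [Finset.image_insert, hfix, hsw, h1, h2] at h3
      exact h3.symm
    · intro hrΓ
      refine Finset.mem_filter.2 ⟨Finset.mem_univ _, hq, hqp, fun hκq => ?_⟩
      have h3 := hPk (κ ⟨q, hq⟩) (hκH _) _ hS
      rw [Finset.image_insert, Finset.image_insert, hfixB _ (hκF _) _ hB, hsw, hκq,
        Finset.insert_comm, ← hr] at h3
      have := hreg _ (hκH _) (hκF _) r hrΓ h3.symm
      rw [this, Perm.one_apply] at hsw
      exact hqp hsw.symm
  -- the interchanged pairs
  let I : Finset Ω := (Γᶜ \ B₀).image fun f => P (insert p (insert f B₀))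
  have hIc : I.card = m + 3 - t := by
    rw [Finset.card_image_of_injOn (hinjB B₀ hB₀ (by omega) p hp), Finset.card_sdiff_of_subset hB₀, hF, hB₀c]
    omega
  have hIQ : I ⊆ (Γ.erase p) \ Q := by
    intro q hq
    obtain ⟨f, hf, rfl⟩ := Finset.mem_image.1 hq
    have hS := hcard B₀ f p hB₀ (by omega) hf hp
    obtain ⟨hqΓ, hqp⟩ := hin B₀ f p _ hB₀ (by omega) hf hp (hP _ hS)
    refine Finset.mem_sdiff.2 ⟨Finset.mem_erase.2 ⟨hqp, hqΓ⟩, fun hQ => ?_⟩
    have h := (hBpq B₀ hB₀ (by omega) _ hqΓ hqp).1 hQ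
    have hpf : p ≠ f := fun e => Finset.mem_compl.1 (Finset.mem_sdiff.1 hf).1 (e ▸ hp)
    have h1 := cpl_exchange hG hS (hP _ hS) (Finset.mem_insert_of_mem (Finset.mem_insert_self f B₀))
    rw [Finset.erase_insert_of_ne hpf, Finset.erase_insert (Finset.mem_sdiff.1 hf).2, Finset.insert_comm] at h1
    rw [heq ?_ h1] at h
    · exact Finset.mem_compl.1 (Finset.mem_sdiff.1 hf).1 h
    · rw [Finset.card_insert_of_notMem, Finset.card_insert_of_notMem fun hm => Finset.mem_compl.1 (hB₀ hm) hqΓ]
      · omega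
      · intro hm
        rcases Finset.mem_insert.1 hm with e | hm
        · exact hqp e.symm
        · exact Finset.mem_compl.1 (hB₀ hm) hp
  have hQ : Q = ∅ := by
    by_contra hne
    obtain ⟨q, hqQ⟩ := Finset.nonempty_iff_ne_empty.2 hne
    obtain ⟨hq, hqp, -⟩ := (Finset.mem_filter.1 hqQ).2
    obtain ⟨B₁, hB₁, hB₁c⟩ := Finset.exists_subset_card_eq (s := Γᶜ) (n := t - 3) (by omega)
    let φ : Ω → Ω := fun f => P (insert p (insert q (insert f B₁)))
    have hφB : ∀ f ∈ Γᶜ \ B₁, insert f B₁ ⊆ Γᶜ ∧ (insert f B₁).card + 2 = t := fun f hf =>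
      ⟨Finset.insert_subset_iff.2 ⟨(Finset.mem_sdiff.1 hf).1, hB₁⟩,
        by rw [Finset.card_insert_of_notMem (Finset.mem_sdiff.1 hf).2]; omega⟩
    have hS : ∀ f ∈ Γᶜ \ B₁, (insert p (insert q (insert f B₁))).card = t := by
      intro f hf
      obtain ⟨h1, h2⟩ := hφB f hf
      rw [Finset.card_insert_of_notMem, Finset.card_insert_of_notMem fun hm => Finset.mem_compl.1 (h1 hm) hq]
      · omega
      · intro hm
        rcases Finset.mem_insert.1 hm with e | hm
        · exact hqp e.symm
        · exact Finset.mem_compl.1 (h1 hm) hp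
    have himg : (Γᶜ \ B₁).image φ ⊆ Q := by
      intro r hr
      obtain ⟨f, hf, rfl⟩ := Finset.mem_image.1 hr
      obtain ⟨h1, h2⟩ := hφB f hf
      have hrΓ : φ f ∈ Γ := (hBpq _ h1 h2 q hq hqp).1 hqQ
      have hc := hP _ (hS f hf)
      have hrp : φ f ≠ p := fun e => hc.1 (by rw [show P _ = p from e]; exact Finset.mem_insert_self _ _)
      refine (hBpq _ h1 h2 _ hrΓ hrp).2 ?_
      have hx := cpl_exchange hG (hS f hf) hc (Finset.mem_insert_of_mem (Finset.mem_insert_self q _))
      rw [Finset.erase_insert_of_ne (Ne.symm hqp),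
        Finset.erase_insert (fun hm => Finset.mem_compl.1 (h1 hm) hq), Finset.insert_comm] at hx
      rw [heq ?_ hx]
      · exact hq
      · rw [Finset.card_insert_of_notMem, Finset.card_insert_of_notMem fun hm => Finset.mem_compl.1 (h1 hm) hrΓ]
        · omega
        · intro hm
          rcases Finset.mem_insert.1 hm with e | hm
          · exact hrp e.symm
          · exact Finset.mem_compl.1 (h1 hm) hp
    have hinj : Set.InjOn φ ↑(Γᶜ \ B₁) := by
      intro f hf f' hf' e
      obtain ⟨h1, h2⟩ := hφB f hf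
      have hrΓ : φ f ∈ Γ := (hBpq _ h1 h2 q hq hqp).1 hqQ
      have key : ∀ f ∈ Γᶜ \ B₁, φ f ∈ Γ →
          P (insert (P (insert p (insert q (insert f B₁)))) (insert p (insert q B₁))) = f := by
        intro f hf hr
        have hc := hP _ (hS f hf)
        have hfp : f ≠ p := fun e => Finset.mem_compl.1 (Finset.mem_sdiff.1 hf).1 (e ▸ hp)
        have hfq : f ≠ q := fun e => Finset.mem_compl.1 (Finset.mem_sdiff.1 hf).1 (e ▸ hq)
        have hx := cpl_exchange hG (hS f hf) hc
          (Finset.mem_insert_of_mem (Finset.mem_insert_of_mem (Finset.mem_insert_self f B₁)))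
        rw [Finset.erase_insert_of_ne hfp.symm, Finset.erase_insert_of_ne hfq.symm,
          Finset.erase_insert (Finset.mem_sdiff.1 hf).2] at hx
        refine heq ?_ hx
        rw [Finset.card_insert_of_notMem, Finset.card_insert_of_notMem, Finset.card_insert_of_notMem
          fun hm => Finset.mem_compl.1 (hB₁ hm) hq]
        · omega
        · intro hm
          rcases Finset.mem_insert.1 hm with e | hm
          · exact hqp e.symm
          · exact Finset.mem_compl.1 (hB₁ hm) hp
        · intro hm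
          refine hc.1 ?_
          rcases Finset.mem_insert.1 hm with e | hm
          · rw [e]; exact Finset.mem_insert_self _ _
          rcases Finset.mem_insert.1 hm with e | hm
          · rw [e]; exact Finset.mem_insert_of_mem (Finset.mem_insert_self _ _)
          · exact absurd hr (Finset.mem_compl.1 (hB₁ hm))
      rw [← key f hf hrΓ, ← key f' hf' (e ▸ hrΓ)]
      exact congrArg (fun r => P (insert r (insert p (insert q B₁)))) e
    have h1 := Finset.card_le_card himg
    rw [Finset.card_image_of_injOn hinj, Finset.card_sdiff_of_subset hB₁, hF, hB₁c] at h1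
    have h2 : Q.card + I.card ≤ m - 1 := by
      rw [← hΓ, ← Finset.card_erase_of_mem hp, ← Finset.card_union_of_disjoint]
      · refine Finset.card_le_card (Finset.union_subset (fun x hx => ?_) (hIQ.trans Finset.sdiff_subset))
        obtain ⟨hx1, hx2, -⟩ := (Finset.mem_filter.1 hx).2
        exact Finset.mem_erase.2 ⟨hx2, hx1⟩
      · exact Finset.disjoint_left.2 fun x hx hx' => (Finset.mem_sdiff.1 (hIQ hx')).2 hx
    omega
  -- every block meeting `Γ` in at most two points is decided
  have hout : ∀ (B : Finset Ω), B ⊆ Γᶜ → B.card + 2 = t → ∀ q ∈ Γ, q ≠ p →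
      P (insert p (insert q B)) ∈ Γᶜ := fun B hB hBc q hq hqp =>
    Finset.mem_compl.2 fun h => by
      have := (hBpq B hB hBc q hq hqp).2 h
      simp [hQ] at this
  have ht4 : t ≤ 4 := by
    let ψ : Ω → Ω := fun q => P (insert p (insert q B₀))
    have hS : ∀ q ∈ Γ.erase p, (insert p (insert q B₀)).card = t := by
      intro q hq
      obtain ⟨hqp, hq⟩ := Finset.mem_erase.1 hq
      rw [Finset.card_insert_of_notMem, Finset.card_insert_of_notMem fun hm => Finset.mem_compl.1 (hB₀ hm) hq]
      · omega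
      · intro hm
        rcases Finset.mem_insert.1 hm with e | hm
        · exact hqp e.symm
        · exact Finset.mem_compl.1 (hB₀ hm) hp
    have himg : (Γ.erase p).image ψ ⊆ Γᶜ \ B₀ := by
      intro r hr
      obtain ⟨q, hq, rfl⟩ := Finset.mem_image.1 hr
      have hq' := Finset.mem_erase.1 hq
      exact Finset.mem_sdiff.2 ⟨hout B₀ hB₀ (by omega) q hq'.2 hq'.1,
        fun hm => (hP _ (hS q hq)).1 (Finset.mem_insert_of_mem (Finset.mem_insert_of_mem hm))⟩
    have hinj : Set.InjOn ψ ↑(Γ.erase p) := by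
      intro q hq q' hq' e
      have key : ∀ q ∈ Γ.erase p, P (insert p (insert (ψ q) B₀)) = q := by
        intro q hq
        obtain ⟨hqp, hqΓ⟩ := Finset.mem_erase.1 hq
        have hx := cpl_exchange hG (hS q hq) (hP _ (hS q hq))
          (Finset.mem_insert_of_mem (Finset.mem_insert_self q B₀))
        rw [Finset.erase_insert_of_ne (Ne.symm hqp),
          Finset.erase_insert (fun hm => Finset.mem_compl.1 (hB₀ hm) hqΓ), Finset.insert_comm] at hx
        exact heq (hcard B₀ _ p hB₀ (by omega) (himg (Finset.mem_image_of_mem ψ hq)) hp) hx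
      rw [← key q hq, ← key q' hq', e]
    have h1 := Finset.card_le_card himg
    rw [Finset.card_image_of_injOn hinj, Finset.card_erase_of_mem hp, hΓ, Finset.card_sdiff_of_subset hB₀,
      hF, hB₀c] at h1
    omega
  have ht4' : t = 4 := by
    rcases Nat.lt_or_ge t 4 with h | h
    · exfalso
      have h2 := Finset.card_le_card (hIQ.trans Finset.sdiff_subset)
      rw [hIc, Finset.card_erase_of_mem hp, hΓ] at h2
      omega
    · omega
  subst ht4'
  -- three points of `Γ`
  obtain ⟨q, hq, r, hr, hqp, hrp, hqr⟩ : ∃ q ∈ Γ, ∃ r ∈ Γ, q ≠ p ∧ r ≠ p ∧ q ≠ r := by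
    obtain ⟨q, hq, r, hr, hqr⟩ := Finset.one_lt_card.1 (show 1 < (Γ.erase p).card by
      rw [Finset.card_erase_of_mem hp, hΓ]; omega)
    exact ⟨q, (Finset.mem_erase.1 hq).2, r, (Finset.mem_erase.1 hr).2, (Finset.mem_erase.1 hq).1,
      (Finset.mem_erase.1 hr).1, hqr⟩
  let T : Finset Ω := {p, q, r}
  have hT : T.card = 3 := Finset.card_eq_three.2 ⟨p, q, r, hqp.symm, hrp.symm, hqr, rfl⟩
  have hTΓ : T ⊆ Γ := by
    intro x hx
    simp only [T, Finset.mem_insert, Finset.mem_singleton] at hx
    rcases hx with rfl | rfl | rfl <;> assumption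
  have hfT : ∀ f ∈ Γᶜ, f ∉ T := fun f hf hm => Finset.mem_compl.1 hf (hTΓ hm)
  have hS : ∀ f ∈ Γᶜ, (insert f T).card = 4 := fun f hf => by
    rw [Finset.card_insert_of_notMem (hfT f hf), hT]
  have hPΓ : ∀ f ∈ Γᶜ, P (insert f T) ∈ Γ \ T := by
    intro f hf
    have hc := hP _ (hS f hf)
    refine Finset.mem_sdiff.2 ⟨?_, fun hm => hc.1 (Finset.mem_insert_of_mem hm)⟩
    by_contra hw
    set w := P (insert f T) with hwdef
    have hfr : f ≠ r := fun e => Finset.mem_compl.1 hf (e ▸ hr)
    have hwf : w ≠ f := fun e => hc.1 (e ▸ Finset.mem_insert_self _ _)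
    have hB : ({w, f} : Finset Ω) ⊆ Γᶜ := by
      intro x hx
      simp only [Finset.mem_insert, Finset.mem_singleton] at hx
      rcases hx with rfl | rfl
      · exact Finset.mem_compl.2 hw
      · exact hf
    have hx := cpl_exchange hG (hS f hf) hc (show r ∈ insert f T by simp [T])
    rw [show insert w ((insert f T).erase r) = insert p (insert q ({w, f} : Finset Ω)) by
      have h1 : p ≠ r := hrp.symm
      rw [show insert f T = insert r (insert p (insert q ({f} : Finset Ω))) by
        simp only [T]; rw [Finset.insert_comm f p, Finset.insert_comm f q]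
        rw [Finset.insert_comm r p, Finset.insert_comm r q, Finset.pair_comm f r],
        Finset.erase_insert (by simp [h1.symm, hqr.symm, Ne.symm hfr]), Finset.insert_comm w p, Finset.insert_comm w q]] at hx
    have h1 := hout {w, f} hB (by rw [Finset.card_pair hwf]) q hq hqp
    rw [heq ?_ hx] at h1
    · exact Finset.mem_compl.1 h1 hr
    · rw [Finset.card_insert_of_notMem, Finset.card_insert_of_notMem fun hm => Finset.mem_compl.1 (hB hm) hq,
        Finset.card_pair hwf]
      intro hm
      rcases Finset.mem_insert.1 hm with e | hm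
      · exact hqp e.symm
      · exact Finset.mem_compl.1 (hB hm) hp
  have hinj : Set.InjOn (fun f => P (insert f T)) ↑Γᶜ := by
    intro f hf f' hf' e
    have key : ∀ f ∈ Γᶜ, P (insert (P (insert f T)) T) = f := by
      intro f hf
      have hx := cpl_exchange hG (hS f hf) (hP _ (hS f hf)) (Finset.mem_insert_self f T)
      rw [Finset.erase_insert (hfT f hf)] at hx
      refine heq ?_ hx
      rw [Finset.card_insert_of_notMem (Finset.mem_sdiff.1 (hPΓ f hf)).2, hT]
    simp only at e
    rw [← key f hf, ← key f' hf', e]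
  have h1 := Finset.card_le_card (show Γᶜ.image (fun f => P (insert f T)) ⊆ Γ \ T from fun x hx => by
    obtain ⟨f, hf, rfl⟩ := Finset.mem_image.1 hx
    exact hPΓ f hf)
  rw [Finset.card_image_of_injOn hinj, Finset.card_sdiff_of_subset hTΓ, hF, hΓ, hT] at h1
  omega

end CfsgLib.JordanSet
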