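import Cfsg.Agent.JordanSet.Main
import Mathlib

/-!
# Quasiprimitive groups with a small Jordan set are primitive
-/

set_option autoImplicit false

namespace CfsgLib.JordanSet

open Equiv Finset MulAction

universe u v

section Alt

variable {Q : Type u} [Fintype Q] [DecidableEq Q]

/-- The three-cycle `u ↦ v ↦ w ↦ u`. -/
def tcyc (u v w : Q) : Perm Q := swap u w * swap u v

theorem tcyc_apply {u v w : Q} (huv : u ≠ v) (huw : u ≠ w) (hvw : v ≠ w) :
    tcyc u v w u = v ∧ tcyc u v w v = w ∧ tcyc u v w w = u ∧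
      ∀ y, y ≠ u → y ≠ v → y ≠ w → tcyc u v w y = y := by
  refine ⟨?_, ?_, ?_, fun y a b c => ?_⟩ <;>
    simp [tcyc, Perm.mul_apply, swap_apply_def, huv, huw, hvw, huv.symm, huw.symm, hvw.symm, *]

theorem tcyc_conj (σ : Perm Q) (u v w : Q) : σ * tcyc u v w * σ⁻¹ = tcyc (σ u) (σ v) (σ w) := by
  simp only [tcyc, Equiv.swap_apply_apply]
  group

theorem tcyc_inv {u v w : Q} (huv : u ≠ v) (huw : u ≠ w) (hvw : v ≠ w) :
    (tcyc v u w)⁻¹ = tcyc u v w := by
  refine inv_eq_of_mul_eq_one_right (Equiv.ext fun y => ?_)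
  obtain ⟨a1, a2, a3, a4⟩ := tcyc_apply huv huw hvw
  obtain ⟨b1, b2, b3, b4⟩ := tcyc_apply huv.symm hvw huw
  rw [Perm.mul_apply, Perm.one_apply]
  rcases eq_or_ne y u with rfl | hu
  · rw [a1, b1]
  rcases eq_or_ne y v with rfl | hv
  · rw [a2, b3]
  rcases eq_or_ne y w with rfl | hw
  · rw [a3, b2]
  rw [a4 y hu hv hw, b4 y hv hu hw]

theorem inj_four {a b c d : Q} (h1 : a ≠ b) (h2 : a ≠ c) (h3 : a ≠ d) (h4 : b ≠ c) (h5 : b ≠ d) (h6 : c ≠ d) :
    Function.Injective ![a, b, c, d] := by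
  intro i j hij
  fin_cases i <;> fin_cases j <;> simp_all

/-- A subgroup fixing `β` stable under conjugation by even permutations fixing `β` which moves few
points contains all even permutations fixing `β`. -/
theorem mem_of_normalised (N : Subgroup (Perm Q)) (β : Q) (Δ : Finset Q) (e : Perm Q) (he : e ∈ N)
    (hesupp : ∀ y ∉ Δ, e y = y) (he1 : e ≠ 1) (hβ : β ∉ Δ) (hΔ : Δ.card + 3 ≤ Fintype.card Q)
    (hconj : ∀ σ : Perm Q, σ ∈ alternatingGroup Q → σ β = β → ∀ x ∈ N, σ * x * σ⁻¹ ∈ N)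
    (σ : Perm Q) (hσ : σ ∈ alternatingGroup Q) (hσβ : σ β = β) : σ ∈ N := by
  obtain ⟨x, hx⟩ : ∃ x, e x ≠ x := by
    by_contra h
    simp only [not_exists, not_not] at h
    exact he1 (Equiv.ext h)
  have hxΔ : x ∈ Δ := by_contra fun h => hx (hesupp x h)
  have hexΔ : e x ∈ Δ := by_contra fun h => hx (e.injective (hesupp _ h))
  obtain ⟨z, hz, z', hz', hzz⟩ := Finset.one_lt_card.1 (show 1 < (Δᶜ.erase β).card by
    rw [Finset.card_erase_of_mem (Finset.mem_compl.2 hβ), Finset.card_compl]; omega)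
  obtain ⟨hzβ, hzΔ⟩ := Finset.mem_erase.1 hz
  obtain ⟨hzβ', hzΔ'⟩ := Finset.mem_erase.1 hz'
  rw [Finset.mem_compl] at hzΔ hzΔ'
  have hxz : x ≠ z := fun h => hzΔ (h ▸ hxΔ)
  have hxz' : x ≠ z' := fun h => hzΔ' (h ▸ hxΔ)
  have hyz : e x ≠ z := fun h => hzΔ (h ▸ hexΔ)
  have hyz' : e x ≠ z' := fun h => hzΔ' (h ▸ hexΔ)
  have hxβ : x ≠ β := fun h => hβ (h ▸ hxΔ)
  have hyβ : e x ≠ β := fun h => hβ (h ▸ hexΔ)
  -- a three-cycle in `N`
  have hc0 : tcyc x (e x) z ∈ N := by
    let c : Perm Q := swap x z' * swap x z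
    have hcA : c ∈ alternatingGroup Q := by
      rw [Perm.mem_alternatingGroup, map_mul, Perm.sign_swap hxz', Perm.sign_swap hxz]; decide
    have hcβ : c β = β := by
      simp only [c, Perm.mul_apply, swap_apply_of_ne_of_ne hxβ.symm hzβ.symm,
        swap_apply_of_ne_of_ne hxβ.symm hzβ'.symm]
    have h := N.mul_mem he (hconj c hcA hcβ _ (N.inv_mem he))
    have hid : e * (c * e⁻¹ * c⁻¹) = tcyc x (e x) z := by
      have h1 : e * swap x z' * e⁻¹ = swap (e x) z' := by
        rw [← Equiv.swap_apply_apply, hesupp z' hzΔ']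
      have h2 : e * swap x z * e⁻¹ = swap (e x) z := by
        rw [← Equiv.swap_apply_apply, hesupp z hzΔ]
      calc e * (c * e⁻¹ * c⁻¹) = (e * swap x z' * e⁻¹) * (e * swap x z * e⁻¹) * c⁻¹ := by
            simp only [c]; group
        _ = swap (e x) z' * swap (e x) z * (swap x z * swap x z') := by
            rw [h1, h2]; simp only [c, mul_inv_rev, swap_inv]
        _ = tcyc x (e x) z := by
            obtain ⟨a1, a2, a3, a4⟩ := tcyc_apply (Ne.symm hx) hxz hyz
            have hyx : e x ≠ x := hx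
            refine Equiv.ext fun y => ?_
            simp only [Perm.mul_apply]
            rcases eq_or_ne y x with b1 | b1
            · rw [b1, a1, swap_apply_left, swap_apply_of_ne_of_ne hxz'.symm hzz.symm,
                swap_apply_of_ne_of_ne hyz'.symm hzz.symm, swap_apply_right]
            rcases eq_or_ne y (e x) with b2 | b2
            · rw [b2, a2, swap_apply_of_ne_of_ne hyx hyz', swap_apply_of_ne_of_ne hyx hyz, swap_apply_left,
                swap_apply_of_ne_of_ne hyz.symm hzz]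
            rcases eq_or_ne y z with b3 | b3
            · rw [b3, a3, swap_apply_of_ne_of_ne hxz.symm hzz, swap_apply_right,
                swap_apply_of_ne_of_ne hyx.symm hxz, swap_apply_of_ne_of_ne hyx.symm hxz']
            rw [a4 y b1 b2 b3]
            rcases eq_or_ne y z' with b4 | b4
            · rw [b4, swap_apply_right, swap_apply_left, swap_apply_right, swap_apply_left]
            rw [swap_apply_of_ne_of_ne b1 b4, swap_apply_of_ne_of_ne b1 b3, swap_apply_of_ne_of_ne b2 b3,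
              swap_apply_of_ne_of_ne b2 b4]
    exact hid ▸ h
  -- all three-cycles fixing `β`
  have hall : ∀ u v w : Q, u ≠ v → u ≠ w → v ≠ w → u ≠ β → v ≠ β → w ≠ β → tcyc u v w ∈ N := by
    intro u v w huv huw hvw hu hv hw
    have hinj1 : Function.Injective ![β, x, e x, z] :=
      inj_four hxβ.symm hyβ.symm hzβ.symm (Ne.symm hx) hxz hyz
    have hinj2 : Function.Injective ![β, u, v, w] := inj_four hu.symm hv.symm hw.symm huv huw hvw
    obtain ⟨τ, hτ⟩ := (isMultiplyPretransitive_iff (G := Perm Q) (α := Q) (n := 4)).1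
      (Equiv.Perm.isMultiplyPretransitive Q 4) ⟨_, hinj1⟩ ⟨_, hinj2⟩
    have hτi : ∀ i : Fin 4, τ (![β, x, e x, z] i) = ![β, u, v, w] i := fun i =>
      congrArg (fun f : Fin 4 ↪ Q => f i) hτ
    have t0 : τ β = β := hτi 0
    have t1 : τ x = u := hτi 1
    have t2 : τ (e x) = v := hτi 2
    have t3 : τ z = w := hτi 3
    rcases Int.units_eq_one_or (Perm.sign τ) with hs | hs
    · have := hconj τ hs t0 _ hc0
      rwa [tcyc_conj, t1, t2, t3] at this
    · have hτ'A : τ * swap x (e x) ∈ alternatingGroup Q := by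
        rw [Perm.mem_alternatingGroup, map_mul, hs, Perm.sign_swap (Ne.symm hx)]; decide
      have hτ'β : (τ * swap x (e x)) β = β := by
        rw [Perm.mul_apply, swap_apply_of_ne_of_ne hxβ.symm hyβ.symm, t0]
      have := hconj _ hτ'A hτ'β _ hc0
      rw [tcyc_conj, Perm.mul_apply, Perm.mul_apply, Perm.mul_apply, swap_apply_left, swap_apply_right,
        swap_apply_of_ne_of_ne hxz.symm hyz.symm, t1, t2, t3] at this
      exact tcyc_inv huv huw hvw ▸ N.inv_mem this
  -- induction on the support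
  suffices key : ∀ (k : ℕ) (σ : Perm Q), σ.support.card = k → σ ∈ alternatingGroup Q → σ β = β → σ ∈ N from
    key _ σ rfl hσ hσβ
  intro k
  induction k using Nat.strong_induction_on with
  | _ k ih =>
    intro σ hk hσ hσβ
    by_cases h1 : σ = 1
    · rw [h1]; exact N.one_mem
    obtain ⟨u, hu⟩ : σ.support.Nonempty := Finset.nonempty_iff_ne_empty.2 fun h => h1 (Perm.support_eq_empty_iff.1 h)
    have hv : σ u ∈ σ.support := Perm.apply_mem_support.2 hu
    have huv : u ≠ σ u := (Perm.mem_support.1 hu).symm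
    obtain ⟨w, hw, hwu, hwv⟩ : ∃ w ∈ σ.support, w ≠ u ∧ w ≠ σ u := by
      by_contra h
      simp only [not_exists, not_and, not_not] at h
      have hsub : σ.support ⊆ {u, σ u} := fun w hw => by
        rw [Finset.mem_insert, Finset.mem_singleton]
        exact (em (w = u)).imp id (h w hw)
      have h2 : σ.support.card = 2 := le_antisymm ((Finset.card_le_card hsub).trans Finset.card_le_two)
        (Perm.two_le_card_support_of_ne_one h1)
      have h3 := (Perm.card_support_eq_two.1 h2).sign_eq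
      rw [Perm.mem_alternatingGroup.1 hσ] at h3
      exact absurd h3 (by decide)
    have hβ' : ∀ y ∈ σ.support, y ≠ β := fun y hy e => Perm.mem_support.1 hy (e ▸ hσβ)
    obtain ⟨a1, a2, a3, a4⟩ := tcyc_apply huv.symm hwv.symm hwu.symm
    set τ := tcyc (σ u) u w with hτ
    have hτN : τ ∈ N := hall _ _ _ huv.symm hwv.symm hwu.symm (hβ' _ hv) (hβ' _ hu) (hβ' _ hw)
    have hτA : τ ∈ alternatingGroup Q := by
      rw [hτ, tcyc, Perm.mem_alternatingGroup, map_mul, Perm.sign_swap hwv.symm, Perm.sign_swap huv.symm]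
      decide
    have hτβ : τ β = β := a4 β (hβ' _ hv).symm (hβ' _ hu).symm (hβ' _ hw).symm
    have hlt : (τ * σ).support.card < k := by
      rw [← hk]
      refine Finset.card_lt_card (Finset.ssubset_iff_of_subset (fun y hy => ?_) |>.2 ⟨u, hu, ?_⟩)
      · by_contra hy'
        refine Perm.mem_support.1 hy ?_
        rw [Perm.mul_apply, Perm.notMem_support.1 hy']
        exact a4 y (fun e => hy' (e ▸ hv)) (fun e => hy' (e ▸ hu)) (fun e => hy' (e ▸ hw))
      · rw [Perm.notMem_support, Perm.mul_apply, a1]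
    have := ih _ hlt (τ * σ) rfl ((alternatingGroup Q).mul_mem hτA hσ) (by rw [Perm.mul_apply, hσβ, hτβ])
    simpa using N.mul_mem (N.inv_mem hτN) this

end Alt

/-- A quasiprimitive group with a Jordan set of less than half the points is primitive. -/
theorem isPreprimitive_of_quasiprimitive {G : Type u} {Ω : Type v} [Group G] [Finite G] [MulAction G Ω]
    [FaithfulSMul G Ω] [Fintype Ω] [DecidableEq Ω]
    (hqp : ∀ N : Subgroup G, N.Normal → N ≠ ⊥ → IsPretransitive N Ω) (Γ : Finset Ω)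
    (h1 : 1 < Γ.card) (h2 : 2 * Γ.card < Fintype.card Ω)
    (htr : ∀ x ∈ Γ, ∀ y ∈ Γ, ∃ g : G, (∀ z ∉ Γ, g • z = z) ∧ g • x = y) :
    IsPreprimitive G Ω := by
  classical
  obtain ⟨p, hp, q, hq, hpq⟩ := Finset.one_lt_card.1 h1
  haveI : IsPretransitive G Ω := by
    obtain ⟨g, -, hg⟩ := htr p hp q hq
    haveI := hqp ⊤ inferInstance fun h => by
      have : g = 1 := Subgroup.mem_bot.1 (h ▸ Subgroup.mem_top g)
      exact hpq (by rw [← hg, this, one_smul])
    exact ⟨fun x y => by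
      obtain ⟨⟨k, _⟩, hk'⟩ := exists_smul_eq (⊤ : Subgroup G) x y
      exact ⟨k, hk'⟩⟩
  obtain ⟨a, ha⟩ : ∃ a, a ∉ Γ := by
    by_contra hall
    simp only [not_exists, not_not] at hall
    rw [Finset.eq_univ_iff_forall.2 hall, Finset.card_univ] at h2
    omega
  haveI : Nontrivial Ω := ⟨⟨p, q, hpq⟩⟩
  rw [← isCoatom_stabilizer_iff_preprimitive G a]
  rcases eq_top_or_exists_le_coatom (stabilizer G a) with htop | ⟨M, hM, hle⟩
  · obtain ⟨g, hg⟩ := exists_smul_eq G a p
    have : g • a = a := (htop ▸ Subgroup.mem_top g : g ∈ stabilizer G a)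
    exact absurd (hg.symm.trans this) fun e => ha (e ▸ hp)
  suffices hMa : M ≤ stabilizer G a by rwa [le_antisymm hle hMa]
  -- the blocks
  haveI : Fintype (G ⧸ M) := Fintype.ofFinite _
  haveI : IsPreprimitive G (G ⧸ M) := by
    haveI : Nontrivial (G ⧸ M) := by
      rw [← not_subsingleton_iff_nontrivial]
      intro hs
      refine hM.1 (eq_top_iff.2 fun x _ => ?_)
      have := QuotientGroup.eq.1 (Subsingleton.elim ((x⁻¹ : G) : G ⧸ M) ((1 : G) : G ⧸ M))
      simpa using this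
    rw [← isCoatom_stabilizer_iff_preprimitive G ((1 : G) : G ⧸ M), stabilizer_quotient]
    exact hM
  choose rep hrep using fun ω : Ω => exists_smul_eq G a ω
  let φ : Ω → G ⧸ M := fun ω => (rep ω : G ⧸ M)
  have hφ : ∀ (g : G) (ω : Ω), φ (g • ω) = g • φ ω := by
    intro g ω
    show ((rep (g • ω) : G) : G ⧸ M) = ((g * rep ω : G) : G ⧸ M)
    refine QuotientGroup.eq.2 (hle ?_)
    rw [mem_stabilizer_iff, mul_smul, mul_smul, hrep, inv_smul_eq_iff, hrep]
  have hφsurj : Function.Surjective φ := by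
    intro c
    obtain ⟨g, hg⟩ := exists_smul_eq G (φ a) c
    exact ⟨g • a, by rw [hφ, hg]⟩
  set β := φ a with hβdef
  -- the action on blocks is faithful
  have hfaith : ∀ g : G, (∀ c : G ⧸ M, g • c = c) → g = 1 := by
    let N : Subgroup G := (toPermHom G (G ⧸ M)).ker
    intro g hg
    by_contra hg1
    have hN : N ≠ ⊥ := fun h => hg1 (Subgroup.mem_bot.1 (h ▸ (Equiv.ext hg : g ∈ N)))
    haveI := hqp N inferInstance hN
    refine hM.1 (eq_top_iff.2 fun x _ => ?_)
    obtain ⟨c, hc⟩ := hφsurj ((x : G) : G ⧸ M)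
    obtain ⟨c', hc'⟩ := hφsurj ((1 : G) : G ⧸ M)
    obtain ⟨⟨k, hk⟩, hkc⟩ := exists_smul_eq N c' c
    have hkc' : k • φ c' = φ c := by rw [← hφ]; exact congrArg φ hkc
    rw [show k • φ c' = φ c' from Equiv.congr_fun (MonoidHom.mem_ker.1 hk) (φ c'), hc, hc'] at hkc'
    simpa using QuotientGroup.eq.1 hkc'
  have hsat : ∀ x y : Ω, φ x = φ y → x ∈ Γ → y ∈ Γ := by
    intro x y hxy hx
    by_contra hy
    have hone : ∀ z ∈ Γ, φ z = φ x := by
      intro z hz
      obtain ⟨g, hg, hgz⟩ := htr x hx z hz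
      rw [← hgz, hφ, hxy, ← hφ, hg y hy]
    obtain ⟨g, hg, hgq⟩ := htr p hp q hq
    have hg1 : g = 1 := hfaith g fun c => by
      obtain ⟨w, rfl⟩ := hφsurj c
      by_cases hw : w ∈ Γ
      · rw [hone w hw, hxy, ← hφ, hg y hy]
      · rw [← hφ, hg w hw]
    exact hpq (by rw [← hgq, hg1, one_smul])
  set Δ := Γ.image φ with hΔdef
  have hΔmem : ∀ w, φ w ∈ Δ ↔ w ∈ Γ := fun w =>
    ⟨fun h => by
      obtain ⟨x, hx, e⟩ := Finset.mem_image.1 h
      exact hsat x w e hx, fun h => Finset.mem_image_of_mem _ h⟩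
  let fib : G ⧸ M → Finset Ω := fun c => Finset.univ.filter fun w => φ w = c
  have hfib : ∀ c, (fib c).card = (fib β).card := by
    intro c
    obtain ⟨g, hg⟩ := exists_smul_eq G β c
    refine (Finset.card_bij (fun w _ => g • w) (fun w hw => ?_) (fun w _ w' _ e => MulAction.injective g e)
      fun w hw => ⟨g⁻¹ • w, ?_, smul_inv_smul g w⟩).symm
    · simp only [fib, Finset.mem_filter, Finset.mem_univ, true_and] at hw ⊢
      rw [hφ, hw, hg]
    · simp only [fib, Finset.mem_filter, Finset.mem_univ, true_and] at hw ⊢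
      rw [hφ, hw, ← hg, inv_smul_smul]
  have hΓc : Γ.card = Δ.card * (fib β).card := by
    rw [Finset.card_eq_sum_card_image φ Γ, ← hΔdef, ← smul_eq_mul, ← Finset.sum_const]
    refine Finset.sum_congr rfl fun c hc => ?_
    rw [← hfib c]
    congr 1
    ext w
    simp only [fib, Finset.mem_filter, Finset.mem_univ, true_and]
    exact ⟨fun h => h.2, fun h => ⟨(hΔmem w).1 (h ▸ hc), h⟩⟩
  have hnc : Fintype.card Ω = Fintype.card (G ⧸ M) * (fib β).card := by
    rw [← Finset.card_univ, Finset.card_eq_sum_card_fiberwise (f := φ) (t := Finset.univ)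
      (fun _ _ => Finset.mem_univ _), ← Finset.card_univ, ← smul_eq_mul, ← Finset.sum_const]
    exact Finset.sum_congr rfl fun c _ => hfib c
  have hΔ2 : 2 * Δ.card < Fintype.card (G ⧸ M) :=
    Nat.lt_of_mul_lt_mul_right (a := (fib β).card) (by rw [mul_assoc, ← hΓc, ← hnc]; exact h2)
  have hΔtr : ∀ x ∈ Δ, ∀ y ∈ Δ, ∃ g : G, (∀ z ∉ Δ, g • z = z) ∧ g • x = y := by
    intro x hx y hy
    obtain ⟨x', hx', rfl⟩ := Finset.mem_image.1 hx
    obtain ⟨y', hy', rfl⟩ := Finset.mem_image.1 hy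
    obtain ⟨g, hg, hgx⟩ := htr x' hx' y' hy'
    refine ⟨g, fun z hz => ?_, by rw [← hφ, hgx]⟩
    obtain ⟨w, rfl⟩ := hφsurj z
    rw [← hφ, hg w fun hw => hz ((hΔmem w).2 hw)]
  have hΔ1 : 1 < Δ.card := by
    by_contra hle1
    obtain ⟨g, hg, hgq⟩ := htr p hp q hq
    have hg1 : g = 1 := hfaith g fun c => by
      obtain ⟨w, rfl⟩ := hφsurj c
      by_cases hw : w ∈ Γ
      · have hgw : g • w ∈ Γ := by
          by_contra h'
          have hfixw : g • w = w := MulAction.injective g (hg _ h')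
          exact h' (hfixw.symm ▸ hw)
        rw [← hφ]
        exact Finset.card_le_one.1 (by omega) _ ((hΔmem _).2 hgw) _ ((hΔmem _).2 hw)
      · rw [← hφ, hg w hw]
    exact hpq (by rw [← hgq, hg1, one_smul])
  -- the image on the blocks
  let π := toPermHom G (G ⧸ M)
  have hπinj : Function.Injective π := (injective_iff_map_eq_one π).2 fun g hg =>
    hfaith g fun c => Equiv.congr_fun hg c
  have hP : IsPreprimitive π.range (G ⧸ M) :=
    IsPreprimitive.of_surjective (f := ({ toFun := id, map_smul' := fun _ _ => rfl } :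
      (G ⧸ M) →ₑ[π.rangeRestrict] (G ⧸ M))) Function.surjective_id
  have hAlt : alternatingGroup (G ⧸ M) ≤ π.range := by
    refine alternatingGroup_le hP hΔ1 hΔ2 fun x hx y hy => ?_
    obtain ⟨g, hg, hgx⟩ := hΔtr x hx y hy
    exact ⟨π g, ⟨g, rfl⟩, hg, hgx⟩
  let A : Subgroup G := (alternatingGroup (G ⧸ M)).comap π
  have hA : A ≠ ⊥ := by
    intro h
    haveI : Nontrivial (alternatingGroup (G ⧸ M)) :=
      alternatingGroup.nontrivial_of_three_le_card (by rw [Nat.card_eq_fintype_card]; omega)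
    obtain ⟨⟨t, ht⟩, ht1⟩ := exists_ne (1 : alternatingGroup (G ⧸ M))
    obtain ⟨g, rfl⟩ := hAlt ht
    have hg : g ∈ A := ht
    rw [h, Subgroup.mem_bot] at hg
    exact ht1 (Subtype.ext (show π g = 1 by rw [hg, map_one]))
  haveI hAtr := hqp A (inferInstance : (Subgroup.comap π (alternatingGroup (G ⧸ M))).Normal) hA
  -- the pointwise stabiliser of a block
  let N : Subgroup G := ⨅ w ∈ fib β, stabilizer G w
  have hNmem : ∀ g, g ∈ N ↔ ∀ w, φ w = β → g • w = w := fun g => by
    simp [N, fib, Subgroup.mem_iInf, mem_stabilizer_iff]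
  have hβΔ : β ∉ Δ := fun h => ha ((hΔmem a).1 h)
  obtain ⟨g₀, hg₀, hg₀q⟩ := htr p hp q hq
  have hg₀N : g₀ ∈ N := (hNmem _).2 fun w hw => hg₀ w fun hwΓ => hβΔ (hw ▸ (hΔmem w).2 hwΓ)
  have hfix : ∀ y ∈ A, y • β = β → y ∈ N := by
    intro y hy hyβ
    have hmem : π y ∈ N.map π := by
      refine mem_of_normalised (N.map π) β Δ (π g₀) ⟨g₀, hg₀N, rfl⟩ (fun c hc => ?_) ?_ hβΔ (by omega)
        (fun σ hσ hσβ x hx => ?_) (π y) hy hyβ
      · obtain ⟨w, rfl⟩ := hφsurj c
        show g₀ • φ w = φ w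
        rw [← hφ, hg₀ w fun hw => hc ((hΔmem w).2 hw)]
      · intro h
        have : g₀ = 1 := hπinj (by rw [h, map_one])
        exact hpq (by rw [← hg₀q, this, one_smul])
      · obtain ⟨s, rfl⟩ := hAlt hσ
        obtain ⟨k, hk, rfl⟩ := hx
        refine ⟨s * k * s⁻¹, (hNmem _).2 fun w hw => ?_, by rw [map_mul, map_mul, map_inv]⟩
        have hsβ : s • β = β := hσβ
        have h1' : φ (s⁻¹ • w) = β := by rw [hφ, hw, inv_smul_eq_iff, hsβ]
        rw [mul_smul, mul_smul, (hNmem k).1 hk _ h1', smul_inv_smul]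
    obtain ⟨k, hk, hke⟩ := hmem
    exact hπinj hke ▸ hk
  intro x hx
  obtain ⟨⟨y, hy⟩, hya⟩ := exists_smul_eq A a (x • a)
  have hya' : y • a = x • a := hya
  have hbase : β = ((1 : G) : G ⧸ M) :=
    QuotientGroup.eq.2 (hle (by rw [mem_stabilizer_iff, mul_one, inv_smul_eq_iff, hrep]))
  have hyβ : y • β = β := by
    rw [hβdef, ← hφ, hya', hφ, ← hβdef, hbase]
    exact QuotientGroup.eq.2 (by simpa using hx)
  rw [mem_stabilizer_iff, ← hya']
  exact (hNmem y).1 (hfix y hy hyβ) a rfl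

end CfsgLib.JordanSet
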